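import Cfsg.Agent.H849.RIM.CentCount
import Cfsg.Agent.H382.RIM.Tool

/-!
# A count of characters over a central involution, `p = 5` (for S4816, row `Sp₆(2)`)

`dz_five` : `y` of order `5 ∥ |G|`, `C(y)` of order at most 60 contains `t`, `s` with `t² = z`, `s³ = 1`,
`s ^ t = s⁻¹`, and `y ^ n = y²`, `t ^ n = z t`: at most nine characters over the faithful character of
`⟨z⟩` have degree prime to `5`.
-/

set_option autoImplicit false
set_option linter.unusedSectionVars false

namespace Cfsg.Agent.H74.RIM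

open Cfsg Subgroup Finset
open Cfsg.Agent.Characters.Core
open Cfsg.Agent.SmallSimple.ThetaSetup Cfsg.Agent.SmallSimple.ThetaOrtho Cfsg.Agent.SmallSimple.ThetaCount
open Cfsg.Agent.SmallSimple.TheoremC Cfsg.Agent.SmallSimple.TheoremCCor
open Cfsg.Agent.SmallSimple.SingularCount
open Cfsg.Agent.H622.Over Cfsg.Agent.H849.RIM
open scoped ComplexConjugate

universe u

section lin

variable {K : Type u} [Group K] [Finite K]

/-- sum of the squares of the degrees over `c` -/
theorem sum_sq_over {N : Subgroup K} (hN : N ≤ center K) (c : N →* ℂˣ) [Fintype (IrrCharacter K)] :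
    (Nat.card N : ℝ) * ∑ χ ∈ H382.RIM.ov N c, ‖(χ : K → ℂ) 1‖ ^ 2 = Nat.card K := by
  rw [H382.RIM.sum_normSq_over hN c 1 (fun n hn => by
    rw [one_mul, isConj_one_left] at hn
    exact Subtype.ext hn)]
  congr 1
  have : centralizer ({1} : Set K) = ⊤ := by
    rw [eq_top_iff]
    intro x _
    rw [mem_centralizer_singleton_iff, mul_one, one_mul]
  rw [this, card_top]

/-- the linear characters with values `-1` on `z = t²` are determined by the value on `t` -/
theorem lin_ext {t s z : K} (ht : t * t = z) (hs : s ^ 3 = 1) (hts : t * s * t⁻¹ = s⁻¹)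
    (hK : closure ({t, s} : Set K) = ⊤) {f g : K →* ℂˣ} (h : f t = g t) : f = g := by
  have key : ∀ f : K →* ℂˣ, f s = 1 := by
    intro f
    have h1 : f s = (f s)⁻¹ := by
      rw [← map_inv, ← hts, map_mul, map_mul, map_inv, mul_comm (f t), mul_inv_cancel_right]
    have h2 : f s ^ 3 = 1 := by rw [← map_pow, hs, map_one]
    have h3 : f s * f s = 1 := by
      nth_rewrite 2 [h1]
      exact mul_inv_cancel _
    rw [pow_succ, pow_two, h3, one_mul] at h2
    exact h2
  refine MonoidHom.eq_of_eqOn_top ?_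
  rw [← hK]
  refine MonoidHom.eqOn_closure ?_
  rintro x (rfl | rfl)
  · exact h
  · rw [key f, key g]

end lin

theorem dz_five {G : Type u} [Group G] [Finite G] {Z : Subgroup G} (hZ : Z ≤ center G) (hZ2 : Nat.card Z = 2)
    (c : Z →* ℂˣ) (hc : Function.Injective c) {z : G} (hz : z ∈ Z) (hz1 : z ≠ 1) {y t s n : G}
    (hy : orderOf y = 5) (h25 : ¬ 5 ^ 2 ∣ Nat.card G) (hcy : Nat.card (centralizer ({y} : Set G)) ≤ 60)
    (hty : t * y = y * t) (hsy : s * y = y * s) (ht : t * t = z) (hs : s ^ 3 = 1) (hs1 : s ≠ 1)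
    (hts : t * s * t⁻¹ = s⁻¹) (hny : n * y * n⁻¹ = y ^ 2) (hnt : n * t * n⁻¹ = z * t)
    (hT : 10 ≤ Nat.card {χ : IrrCharacter G // Lies Z c (χ : G → ℂ)}) :
    ∃ χ : IrrCharacter G, Lies Z c (χ : G → ℂ) ∧ 5 ∣ charDegree (χ : G → ℂ) := by
  classical
  have : Fact (Nat.Prime 5) := ⟨by norm_num⟩
  have hp : Nat.Prime 5 := by norm_num
  have hfinG : Finite (IrrCharacter G) := finite_irr
  have := Fintype.ofFinite (IrrCharacter G)
  have hzz : z * z = 1 := by
    have h1 := pow_card_eq_one' (G := Z) (x := ⟨z, hz⟩)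
    rw [hZ2, pow_two] at h1
    exact congrArg Subtype.val h1
  -- the Sylow subgroup
  have hzp : IsPGroup 5 (zpowers y) := IsPGroup.of_card (n := 1) (by rw [Nat.card_zpowers, hy, pow_one])
  obtain ⟨P, hPle⟩ := hzp.exists_le_sylow
  have hP : Nat.card P = 5 := by
    obtain ⟨n, hn⟩ := (IsPGroup.iff_card).1 P.2
    have h1 : Nat.card P ∣ Nat.card G := card_subgroup_dvd_card _
    have h2 : n < 2 := by
      by_contra h3
      push Not at h3
      exact h25 ((pow_dvd_pow 5 h3).trans (hn ▸ h1))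
    have h3 : 5 ∣ Nat.card P := by
      have := card_dvd_of_le hPle
      rwa [Nat.card_zpowers, hy] at this
    interval_cases n
    · rw [hn, pow_zero, Nat.dvd_one] at h3
      exact absurd h3 hp.one_lt.ne'
    · rw [hn, pow_one]
  have hPz : (P : Subgroup G) = zpowers y := by
    symm
    refine eq_of_le_of_card_ge hPle ?_
    rw [Nat.card_zpowers, hy]
    exact hP.le
  have hyP : y ∈ (P : Subgroup G) := hPle (mem_zpowers y)
  have hy1 : y ≠ 1 := by
    rintro rfl
    rw [orderOf_one] at hy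
    exact absurd hy (by norm_num)
  have hCP : centralizer ((P : Subgroup G) : Set G) = centralizer ({y} : Set G) :=
    (Blocks.CyclicOrtho.centralizer_eq P hP hyP hy1).symm
  obtain ⟨K, hK⟩ := exists_isComp P hP
  have hcK : Nat.card K ≤ 12 := by
    have h1 : Nat.card P * Nat.card K = Nat.card (centralizer ((P : Subgroup G) : Set G)) := by
      rw [← Nat.card_prod]
      exact Nat.card_congr (prodEquiv hK hP).toEquiv
    rw [hP, hCP] at h1
    omega
  have memK : ∀ g : G, g * y = y * g → ∀ k : ℕ, g ^ k = 1 → ¬ 5 ∣ k → g ∈ K := by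
    intro g hg k hk h5
    rw [hK, hCP, mem_centralizer_singleton_iff]
    exact ⟨hg, fun h => h5 (h.trans (orderOf_dvd_of_pow_eq_one hk))⟩
  have ht4 : t ^ 4 = 1 := by
    rw [show (4 : ℕ) = 2 * 2 by norm_num, pow_mul, pow_two, pow_two, ht, hzz]
  have htK : t ∈ K := memK t hty 4 ht4 (by norm_num)
  have hsK : s ∈ K := memK s hsy 3 hs (by norm_num)
  have hzK' : z ∈ K := by rw [← ht]; exact mul_mem htK htK
  have hZK : Z ≤ K := by
    intro w hw
    refine memK w (mem_center_iff.1 (hZ hw) y).symm 2 ?_ (by norm_num)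
    have h1 := pow_card_eq_one' (G := Z) (x := ⟨w, hw⟩)
    rw [hZ2] at h1
    exact congrArg Subtype.val h1
  -- `K` is generated by `t` and `s`
  set tK : K := ⟨t, htK⟩ with htKd
  set sK : K := ⟨s, hsK⟩ with hsKd
  set zK : K := ⟨z, hzK'⟩ with hzKd
  have hclo : closure ({tK, sK} : Set K) = ⊤ := by
    apply eq_top_of_card_eq
    have h1 : Nat.card (closure ({tK, sK} : Set K)) ≤ Nat.card K := Subgroup.card_le_card_group _
    have ot : orderOf tK = 4 := by
      rw [show (4 : ℕ) = 2 ^ (1 + 1) by norm_num]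
      refine orderOf_eq_prime_pow ?_ ?_
      · intro h
        apply hz1
        have := congrArg Subtype.val h
        rw [pow_one, pow_two] at this
        exact ht.symm.trans this
      · exact Subtype.ext ht4
    have os : orderOf sK = 3 := orderOf_eq_prime (Subtype.ext hs) fun h => hs1 (congrArg Subtype.val h)
    have h2 : 4 ∣ Nat.card (closure ({tK, sK} : Set K)) := by
      have h3 := _root_.orderOf_dvd_natCard
        (⟨tK, subset_closure (Set.mem_insert _ _)⟩ : closure ({tK, sK} : Set K))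
      rwa [← Subgroup.orderOf_coe, ot] at h3
    have h3 : 3 ∣ Nat.card (closure ({tK, sK} : Set K)) := by
      have h3 := _root_.orderOf_dvd_natCard
        (⟨sK, subset_closure (Set.mem_insert_of_mem _ rfl)⟩ : closure ({tK, sK} : Set K))
      rwa [← Subgroup.orderOf_coe, os] at h3
    have h4 : 4 * 3 ∣ Nat.card (closure ({tK, sK} : Set K)) := Nat.Coprime.mul_dvd_of_dvd_of_dvd (by norm_num) h2 h3
    have h5 := Nat.le_of_dvd Nat.card_pos h4
    omega
  have hfinK : Finite (IrrCharacter K) := finite_irr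
  have := Fintype.ofFinite (IrrCharacter K)
  -- `n` normalizes `P`
  have hnP : n ∈ normalizer ((P : Subgroup G) : Set G) := by
    refine mem_normalizer_fintype fun g hg => ?_
    have hg' : g ∈ zpowers y := by rw [← hPz]; exact hg
    obtain ⟨i, rfl⟩ := mem_powers_iff_mem_zpowers.2 hg'
    show n * y ^ i * n⁻¹ ∈ (P : Subgroup G)
    rw [← conj_pow, hny]
    exact pow_mem (pow_mem hyP 2) i
  -- `|N(P) : C(P)| = 4`
  have hw : (centralizer ((P : Subgroup G) : Set G)).relIndex (normalizer ((P : Subgroup G) : Set G)) = 4 := by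
    rw [Subgroup.relIndex, ← Subgroup.normalizerMonoidHom_ker, Subgroup.index_ker]
    have hA : Nat.card (MulAut P) = 4 := by
      have : IsCyclic (P : Subgroup G) := isCyclic_of_prime_card hP
      rw [IsCyclic.card_mulAut, hP, Nat.totient_prime hp]
    set r : MulAut P := Subgroup.normalizerMonoidHom (P : Subgroup G) ⟨n, hnP⟩ with hr
    have happ : ∀ x : (P : Subgroup G), ((r x : (P : Subgroup G)) : G) = n * x * n⁻¹ := fun x => rfl
    have hmem : r ∈ (Subgroup.normalizerMonoidHom (P : Subgroup G)).range := ⟨_, rfl⟩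
    have hr2 : r ^ 2 ≠ 1 := by
      intro h
      have h1 : (((r ^ 2) ⟨y, hyP⟩ : (P : Subgroup G)) : G) = y := by rw [h]; rfl
      rw [pow_two, MulAut.mul_apply, happ, happ] at h1
      rw [hny, ← conj_pow, hny, ← pow_mul] at h1
      have h2 : y ^ 3 = 1 := by
        have h3 : y ^ (2 * 2) = y ^ 3 * y := by rw [← pow_succ]
        rw [h3] at h1
        exact mul_eq_right.1 h1
      have h4 := orderOf_dvd_of_pow_eq_one h2
      rw [hy] at h4
      omega
    have ho : orderOf r = 4 := by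
      rw [show (4 : ℕ) = 2 ^ (1 + 1) by norm_num]
      refine orderOf_eq_prime_pow ?_ ?_
      · rwa [pow_one]
      · have h1 := pow_card_eq_one' (x := r)
        rw [hA] at h1
        exact h1
    have h1 : 4 ∣ Nat.card (Subgroup.normalizerMonoidHom (P : Subgroup G)).range := by
      have h3 := _root_.orderOf_dvd_natCard
        (⟨r, hmem⟩ : (Subgroup.normalizerMonoidHom (P : Subgroup G)).range)
      rwa [← Subgroup.orderOf_coe, ho] at h3
    have h2 : Nat.card (Subgroup.normalizerMonoidHom (P : Subgroup G)).range ∣ 4 := by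
      rw [← hA]
      exact card_subgroup_dvd_card _
    exact Nat.dvd_antisymm h2 h1
  -- the characters of `K` over `c`
  let c' : Z.subgroupOf K →* ℂˣ := c.comp (subgroupOfEquivOfLe hZK).toMonoidHom
  have hZ' : Z.subgroupOf K ≤ center K := by
    intro z hz
    rw [mem_center_iff]
    intro y
    exact Subtype.ext (mem_center_iff.1 (hZ (mem_subgroupOf.1 hz)) y)
  set A : Finset (IrrCharacter K) := Finset.univ.filter fun θ : IrrCharacter K => LiesK Z c K (θ : K → ℂ) with hAd
  have hAl : ∀ θ ∈ A, LiesK Z c K (θ : K → ℂ) := fun θ hθ => (mem_filter.1 hθ).2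
  have hcz : (c ⟨z, hz⟩ : ℂ) = -1 := by
    have h1 : (c ⟨z, hz⟩ : ℂ) * c ⟨z, hz⟩ = 1 := by
      rw [← Units.val_mul, ← map_mul]
      have : (⟨z, hz⟩ : Z) * ⟨z, hz⟩ = 1 := Subtype.ext hzz
      rw [this, map_one, Units.val_one]
    rcases mul_self_eq_one_iff.1 h1 with h2 | h2
    · exfalso
      apply hz1
      have h3 : c ⟨z, hz⟩ = 1 := Units.ext h2
      have h4 := hc (h3.trans (map_one c).symm)
      exact congrArg Subtype.val h4
    · exact h2
  -- degrees
  have hdeg : ∀ θ : IrrCharacter K, ∃ d : ℕ, 1 ≤ d ∧ (θ : K → ℂ) 1 = d := by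
    intro θ
    refine ⟨charDegree (θ : K → ℂ), ?_, Blocks.Basic.irr_one_eq_charDegree θ.2⟩
    rcases Nat.eq_zero_or_pos (charDegree (θ : K → ℂ)) with h | h
    · exfalso
      have h1 := Blocks.Basic.irr_one_eq_charDegree θ.2
      rw [h, Nat.cast_zero] at h1
      exact isIrr_apply_one_ne_zero θ.2 h1
    · exact h
  set a := (A.filter fun θ : IrrCharacter K => (θ : K → ℂ) 1 = 1).card with had
  set b := (A.filter fun θ : IrrCharacter K => ¬ (θ : K → ℂ) 1 = 1).card with hbd
  have hab : a + 4 * b ≤ 6 := by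
    have h1 := sum_sq_over hZ' c'
    have h2 : Nat.card (Z.subgroupOf K) = 2 := by
      rw [Nat.card_congr (subgroupOfEquivOfLe hZK).toEquiv, hZ2]
    have h3 : A ⊆ H382.RIM.ov (Z.subgroupOf K) c' := by
      intro θ hθ
      rw [H382.RIM.mem_ov]
      intro y z
      exact hAl θ hθ y (y * z) ⟨((z : K) : G), mem_subgroupOf.1 z.2⟩ rfl
    have h4 : (a + 4 * b : ℝ) ≤ ∑ θ ∈ A, ‖(θ : K → ℂ) 1‖ ^ 2 := by
      rw [← Finset.sum_filter_add_sum_filter_not A (fun θ : IrrCharacter K => (θ : K → ℂ) 1 = 1)]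
      have e1 : (a : ℝ) ≤ ∑ θ ∈ A.filter (fun θ : IrrCharacter K => (θ : K → ℂ) 1 = 1), ‖(θ : K → ℂ) 1‖ ^ 2 := by
        rw [had, ← nsmul_one, ← Finset.sum_const]
        refine Finset.sum_le_sum fun θ hθ => ?_
        rw [(mem_filter.1 hθ).2, norm_one, one_pow]
      have e2 : (4 * b : ℝ) ≤
          ∑ θ ∈ A.filter (fun θ : IrrCharacter K => ¬ (θ : K → ℂ) 1 = 1), ‖(θ : K → ℂ) 1‖ ^ 2 := by
        have e3 : (4 * b : ℝ) = ∑ θ ∈ A.filter (fun θ : IrrCharacter K => ¬ (θ : K → ℂ) 1 = 1), (4 : ℝ) := by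
          rw [Finset.sum_const, nsmul_eq_mul, hbd, mul_comm]
        rw [e3]
        refine Finset.sum_le_sum fun θ hθ => ?_
        obtain ⟨d, hd1, hd⟩ := hdeg θ
        have hne := (mem_filter.1 hθ).2
        rw [hd] at hne ⊢
        have hd2 : 2 ≤ d := by
          by_contra h
          have : d = 1 := by omega
          exact hne (by rw [this, Nat.cast_one])
        rw [Complex.norm_natCast]
        have : (2 : ℝ) ≤ d := by exact_mod_cast hd2
        nlinarith
      linarith
    have h5 : ∑ θ ∈ A, ‖(θ : K → ℂ) 1‖ ^ 2 ≤ ∑ θ ∈ H382.RIM.ov (Z.subgroupOf K) c', ‖(θ : K → ℂ) 1‖ ^ 2 :=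
      Finset.sum_le_sum_of_subset_of_nonneg h3 fun θ _ _ => by positivity
    rw [h2] at h1
    have h6 : (Nat.card K : ℝ) ≤ 12 := by exact_mod_cast hcK
    have h7 : ((a + 4 * b : ℕ) : ℝ) ≤ ((6 : ℕ) : ℝ) := by
      push_cast
      push_cast at h1
      linarith
    exact_mod_cast h7
  -- linear characters
  have hlin : ∀ θ ∈ A, (θ : K → ℂ) 1 = 1 → ∃ f : K →* ℂˣ, (θ : K → ℂ) = (fun g => (f g : ℂ)) ∧
      (f tK : ℂ) * f tK = -1 := by
    intro θ hθ h1
    obtain ⟨f, hf⟩ := Cfsg.Agent.Characters.Linear.exists_hom_of_isIrrCharacter θ.2 h1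
    refine ⟨f, hf, ?_⟩
    have h2 := hAl θ hθ 1 zK ⟨z, hz⟩ (by rw [hzKd, Subgroup.coe_one, one_mul])
    rw [h1, one_mul, hcz] at h2
    rw [← h2, hf]
    show (f tK : ℂ) * f tK = f zK
    rw [← Units.val_mul, ← map_mul]
    congr 2
    exact Subtype.ext ht
  have ha2 : a ≤ 2 := by
    have hinj : Set.InjOn (fun θ : IrrCharacter K => (θ : K → ℂ) tK)
        (A.filter fun θ : IrrCharacter K => (θ : K → ℂ) 1 = 1 : Finset (IrrCharacter K)) := by
      intro θ hθ θ' hθ' h
      rw [Finset.mem_coe, mem_filter] at hθ hθ'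
      obtain ⟨f, hf, -⟩ := hlin θ hθ.1 hθ.2
      obtain ⟨f', hf', -⟩ := hlin θ' hθ'.1 hθ'.2
      have h1 : f tK = f' tK := by
        apply Units.ext
        have h2 : (θ : K → ℂ) tK = (θ' : K → ℂ) tK := h
        rw [hf, hf'] at h2
        exact h2
      have h2 : f = f' := lin_ext (z := zK) (Subtype.ext ht) (Subtype.ext hs) (Subtype.ext hts) hclo h1
      apply Subtype.ext
      rw [hf, hf', h2]
    have hsub : (A.filter fun θ : IrrCharacter K => (θ : K → ℂ) 1 = 1).image
        (fun θ : IrrCharacter K => (θ : K → ℂ) tK) ⊆ {Complex.I, -Complex.I} := by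
      intro x hx
      obtain ⟨θ, hθ, rfl⟩ := Finset.mem_image.1 hx
      rw [mem_filter] at hθ
      obtain ⟨f, hf, h1⟩ := hlin θ hθ.1 hθ.2
      rw [Finset.mem_insert, Finset.mem_singleton]
      show (θ : K → ℂ) tK = _ ∨ (θ : K → ℂ) tK = _
      rw [hf]
      show (f tK : ℂ) = _ ∨ (f tK : ℂ) = _
      have h2 : ((f tK : ℂ) - Complex.I) * ((f tK : ℂ) + Complex.I) = 0 := by
        linear_combination h1 - Complex.I_mul_I
      rcases mul_eq_zero.1 h2 with h3 | h3
      · left; linear_combination h3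
      · right; linear_combination h3
    rw [had, ← Finset.card_image_of_injOn hinj]
    exact (Finset.card_le_card hsub).trans (Finset.card_le_two)
  -- inertia
  have he4 : ∀ θ : IrrCharacter K, Nat.card (stabAct hK (θ : K → ℂ)) ≤ 4 := by
    intro θ
    have h1 := card_stabAct_mul_card_orb hK hP θ.2
    rw [hw] at h1
    exact Nat.le_of_dvd (by norm_num) (Dvd.intro _ h1)
  have he2 : ∀ θ ∈ A, (θ : K → ℂ) 1 = 1 → Nat.card (stabAct hK (θ : K → ℂ)) ≤ 2 := by
    intro θ hθ h1
    obtain ⟨f, hf, h2⟩ := hlin θ hθ h1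
    have h3 := card_stabAct_mul_card_orb hK hP θ.2
    rw [hw] at h3
    have h4 : 2 ≤ (orb P K (θ : K → ℂ)).card := by
      have m1 : θ ∈ orb P K (θ : K → ℂ) := mem_orb.2 ⟨1, one_mem _, tw_one _⟩
      have htw : ∃ θ' : IrrCharacter K, tw (θ : K → ℂ) n = θ' := ⟨⟨_, isIrr_tw hK θ.2 hnP⟩, rfl⟩
      obtain ⟨θ', hθ'⟩ := htw
      have m2 : θ' ∈ orb P K (θ : K → ℂ) := mem_orb.2 ⟨n, hnP, hθ'⟩
      have hne : θ ≠ θ' := by
        intro h
        have h5 : tw (θ : K → ℂ) n tK = (θ : K → ℂ) tK := by rw [hθ', ← h]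
        rw [tw_apply hK _ hnP] at h5
        have h6 : (⟨n * tK * n⁻¹, conj_mem hK hnP tK.2⟩ : K) = zK * tK := Subtype.ext hnt
        rw [h6, hf] at h5
        have h7 : (f (zK * tK) : ℂ) = f tK := h5
        rw [map_mul, Units.val_mul] at h7
        have h8 : (f zK : ℂ) = -1 := by
          have : zK = tK * tK := Subtype.ext ht.symm
          rw [this, map_mul, Units.val_mul, h2]
        rw [h8] at h7
        have h9 : (f tK : ℂ) ≠ 0 := Units.ne_zero _
        apply h9
        linear_combination -h7 / 2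
      have h5 : ({θ, θ'} : Finset (IrrCharacter K)) ⊆ orb P K (θ : K → ℂ) := by
        intro x hx
        rw [Finset.mem_insert, Finset.mem_singleton] at hx
        rcases hx with rfl | rfl
        · exact m1
        · exact m2
      have h6 := Finset.card_le_card h5
      rwa [Finset.card_pair hne] at h6
    nlinarith
  -- the count
  by_contra hcon
  push Not at hcon
  set T : Finset (IrrCharacter G) := Finset.univ.filter fun χ : IrrCharacter G => Lies Z c (χ : G → ℂ) with hTd
  have hTc : 10 ≤ T.card := by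
    rw [Nat.card_eq_fintype_card, Fintype.card_subtype] at hT
    exact hT
  have h1 := card_mul_le hK hP hZ hZK hw A (fun θ hθ => mem_filter.2 ⟨mem_univ _, hθ⟩) T
    (fun χ hχ => ⟨(mem_filter.1 hχ).2, y, by rw [hy],
      H424.CentBound.apply_ne_zero (p := 5) (isIrr_isCharacter χ.2) (Blocks.Basic.irr_one_eq_charDegree χ.2)
        (hcon χ (mem_filter.1 hχ).2) (m := 1) (by rw [pow_one, ← hy, pow_orderOf_eq_one])⟩)
  have h2 : ∑ θ ∈ A, (Nat.card (stabAct hK (θ : K → ℂ)) ^ 2 + (5 - 1)) ≤ 8 * a + 20 * b := by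
    rw [← Finset.sum_filter_add_sum_filter_not A (fun θ : IrrCharacter K => (θ : K → ℂ) 1 = 1)]
    refine Nat.add_le_add ?_ ?_
    · rw [had, mul_comm, ← smul_eq_mul, ← Finset.sum_const]
      refine Finset.sum_le_sum fun θ hθ => ?_
      have := he2 θ (mem_filter.1 hθ).1 (mem_filter.1 hθ).2
      nlinarith
    · rw [hbd, mul_comm, ← smul_eq_mul, ← Finset.sum_const]
      refine Finset.sum_le_sum fun θ hθ => ?_
      have := he4 θ
      nlinarith
  omega

end Cfsg.Agent.H74.RIM
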