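import Cfsg.Agent.H74.RIM.Cent

/-!
# The element of order 5 of `Sp₆(2)`

`card_cent5` : its centralizer has order at most 30; relations with transvections.
-/

set_option autoImplicit false

namespace Cfsg.Agent.H74.RIM

open Cfsg Cfsg.Agent.H612.Ore
open Cfsg.Agent.SporRec.TwoSp6.Sp (V S om tr act act_one act_mul act_ext act_add act_om act_tr enc enc_xor om_enc
  fN exists_enc)

/-- words in transvections given by codes -/
def wt (w : List ℕ) : S := (w.map fun u => tr (enc u)).prod

/-- a transvection on codes -/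
def stw (u v : ℕ) : ℕ := bif B6 v u then v ^^^ u else v

/-- a word on codes -/
def wvt (w : List ℕ) (v : ℕ) : ℕ := w.foldr stw v

theorem ap_tr {u v : ℕ} (hu : u < 64) (hv : v < 64) : spAct.ap (tr (enc u)) v = stw u v := by
  rw [spAct_ap, act_tr, stw]
  have h := B6_om hv hu
  have hlt : v ^^^ u < 64 := Nat.xor_lt_two_pow (n := 6) hv hu
  by_cases h1 : om (enc v) (enc u) = 1
  · rw [h, decide_eq_true h1, cond_true, h1, one_smul, ← enc_xor, cd_enc _ hlt]
  · have h0 : om (enc v) (enc u) = 0 := by
      rcases Cfsg.Agent.SporRec.TwoSp6.Sp.om_cases (enc v) (enc u) with h2 | h2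
      · exact h2
      · exact absurd h2 h1
    rw [h, decide_eq_false h1, cond_false, h0, zero_smul, add_zero, cd_enc _ hv]

theorem ap_wt (w : List ℕ) (hw : ∀ u ∈ w, u < 64) {v : ℕ} (hv : v < 64) : spAct.ap (wt w) v = wvt w v := by
  induction w with
  | nil => exact spAct.one v hv
  | cons u w ih =>
    have ih' := ih fun x hx => hw x (List.mem_cons_of_mem _ hx)
    have hu : u < 64 := hw u (List.mem_cons_self ..)
    rw [wt, List.map_cons, List.prod_cons, spAct.mul _ _ _ hv]
    have h2 : spAct.ap (wt w) v < 64 := spAct.lt _ _ hv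
    show spAct.ap (tr (enc u)) (spAct.ap (wt w) v) = _
    rw [ap_tr hu h2, ih']
    rfl

theorem wt_append (u w : List ℕ) : wt (u ++ w) = wt u * wt w := by
  rw [wt, List.map_append, List.prod_append]
  rfl

/-- certificate for an equality of words -/
def weq (w w' : List ℕ) : Bool := (w.all fun u => Nat.blt u 64) && ((w'.all fun u => Nat.blt u 64) &&
  (List.range 6).all fun k => wvt w (2 ^ k) == wvt w' (2 ^ k))

theorem wt_eq {w w' : List ℕ} (h : weq w w' = true) : wt w = wt w' := by
  rw [weq, Bool.and_eq_true, Bool.and_eq_true] at h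
  obtain ⟨h1, h2, h3⟩ := h
  have e1 : ∀ u ∈ w, u < 64 := fun u hu => by
    have := List.all_eq_true.1 h1 u hu
    rwa [Nat.blt_eq] at this
  have e2 : ∀ u ∈ w', u < 64 := fun u hu => by
    have := List.all_eq_true.1 h2 u hu
    rwa [Nat.blt_eq] at this
  apply spAct.ext
  intro k hk
  have hk2 := two_pow_lt (n := 6) hk
  rw [ap_wt w e1 hk2, ap_wt w' e2 hk2]
  exact eq_of_beq (List.all_eq_true.1 h3 k (List.mem_range.2 hk))

/-- the word of the element of order 5 -/
def y5w : List ℕ := [20, 3, 8, 1]

theorem g5_eq : g5 = wt y5w := rfl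

theorem t_comm : wt [4] * g5 = g5 * wt [4] := by
  rw [g5_eq, ← wt_append, ← wt_append]
  exact wt_eq (by decide +kernel)

theorem s_comm : wt [4, 34] * g5 = g5 * wt [4, 34] := by
  rw [g5_eq, ← wt_append, ← wt_append]
  exact wt_eq (by decide +kernel)

theorem n_conj : wt [1, 3, 8] * g5 * (wt [1, 3, 8])⁻¹ = g5 ^ 2 := by
  rw [mul_inv_eq_iff_eq_mul, g5_eq, pow_two, ← wt_append, ← wt_append, ← wt_append]
  exact wt_eq (by decide +kernel)

theorem s_pow : wt [4, 34] ^ 3 = 1 := by
  have h : wt [4, 34] ^ 3 = wt ([4, 34] ++ ([4, 34] ++ [4, 34])) := by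
    rw [wt_append, wt_append, pow_succ, pow_two, mul_assoc]
  rw [h, show (1 : S) = wt [] from rfl]
  exact wt_eq (by decide +kernel)

theorem s_ne : wt [4, 34] ≠ 1 := by
  intro h
  have h1 := ap_wt [4, 34] (by decide) (v := 1) (by norm_num)
  have h2 := ap_wt [4, 34] (by decide) (v := 2) (by norm_num)
  have h3 := ap_wt [4, 34] (by decide) (v := 4) (by norm_num)
  rw [h, spAct.one _ (by norm_num)] at h3
  exact absurd h3 (by decide +kernel)

theorem t_conj : wt [4] * wt [4, 34] * (wt [4])⁻¹ = (wt [4, 34])⁻¹ := by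
  have h2 : wt [4] * wt [4, 34] * wt [4] * wt [4, 34] = 1 := by
    rw [← wt_append, ← wt_append, ← wt_append, show (1 : S) = wt [] from rfl]
    exact wt_eq (by decide +kernel)
  have h4 : wt [4] * wt [4] = 1 := by
    rw [← wt_append, show (1 : S) = wt [] from rfl]
    exact wt_eq (by decide +kernel)
  have h5 : (wt [4])⁻¹ = wt [4] := inv_eq_of_mul_eq_one_right h4
  rw [h5, eq_inv_iff_mul_eq_one]
  exact h2

/-! ### the centralizer -/

/-- xor of the members of a sequence with the given mask -/
def combv (vs : ℕ → ℕ) (m : ℕ) : ℕ → ℕ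
  | 0 => 0
  | k + 1 => bif m.testBit k then combv vs m k ^^^ vs k else combv vs m k

theorem eq_of_agree {g h : S} {vs : ℕ → ℕ} (hl : ∀ i, vs i < 64)
    (hvs : ∀ i, i < 6 → spAct.ap g (vs i) = spAct.ap h (vs i))
    (hc : ∀ i, i < 6 → ∃ m, combv vs m 6 = 2 ^ i) : g = h := by
  have key : ∀ m j : ℕ, j ≤ 6 → combv vs m j < 2 ^ 6 ∧
      spAct.ap g (combv vs m j) = spAct.ap h (combv vs m j) := by
    intro m j
    induction j with
    | zero =>
      intro _
      exact ⟨by norm_num [combv], by rw [combv, spAct.ap_zero, spAct.ap_zero]⟩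
    | succ j ih =>
      intro hj
      have ih' := ih (by omega)
      rw [combv]
      cases m.testBit j
      · exact ih'
      · rw [cond_true]
        refine ⟨Nat.xor_lt_two_pow ih'.1 (hl j), ?_⟩
        rw [spAct.xor g _ _ ih'.1 (hl j), spAct.xor h _ _ ih'.1 (hl j), ih'.2, hvs j (by omega)]
  apply spAct.ext
  intro i hi
  obtain ⟨m, hm⟩ := hc i hi
  rw [← hm]
  exact (key m 6 le_rfl).2

/-- the vectors -/
def vs5 (i : ℕ) : ℕ := [1, 30, 20, 3, 4, 34].getD i 0

/-- images of the first vector -/
def A5 : Finset ℕ := (Finset.range 64).filter fun w =>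
  (((List.range 64).any fun v => v ^^^ apc 6 55952295326 v == w) &&
    ((List.range 4).all fun i => (List.range 4).all fun j =>
      B6 (itc 55952295326 i w) (itc 55952295326 j w) == B6 (itc 55952295326 i 1) (itc 55952295326 j 1))) = true

/-- images of the fixed vectors -/
def B5 : Finset (ℕ × ℕ) := ((Finset.range 64).filter fun w => apc 6 55952295326 w = w) ×ˢ
    ((Finset.range 64).filter fun w => apc 6 55952295326 w = w) |>.filter fun p => B6 p.1 p.2 = true

theorem A5_card : A5.card = 5 := by decide +kernel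

theorem B5_card : B5.card = 6 := by decide +kernel

theorem card_cent5 : Nat.card (Subgroup.centralizer ({g5} : Set S)) ≤ 30 := by
  have hmem : ∀ g : S, g * g5 = g5 * g → spAct.ap g 1 ∈ A5 ∧ (spAct.ap g 4, spAct.ap g 34) ∈ B5 := by
    intro g hg
    have hlt : ∀ v : ℕ, v < 64 → spAct.ap g v < 64 := fun v hv => spAct.lt g v hv
    have hc : ∀ v : ℕ, v < 64 → spAct.ap g (apc 6 55952295326 v) = apc 6 55952295326 (spAct.ap g v) := by
      intro v hv
      rw [← spAct.ap_eq rep5 hv, ← spAct.ap_eq rep5 (hlt v hv), ← spAct.mul _ _ _ hv, ← spAct.mul _ _ _ hv, hg]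
    constructor
    · rw [A5, Finset.mem_filter, Finset.mem_range]
      refine ⟨hlt 1 (by norm_num), ?_⟩
      rw [Bool.and_eq_true]
      constructor
      · rw [List.any_eq_true]
        refine ⟨spAct.ap g 25, List.mem_range.2 (hlt 25 (by norm_num)), ?_⟩
        have h1 : apc 6 55952295326 25 < 64 := by decide +kernel
        have h2 : 25 ^^^ apc 6 55952295326 25 = 1 := by decide +kernel
        rw [beq_iff_eq, ← hc 25 (by norm_num), ← spAct.xor g _ _ (by norm_num) h1, h2]
      · have key : ∀ i : ℕ, spAct.ap g (itc 55952295326 i 1) = itc 55952295326 i (spAct.ap g 1) := by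
          intro i
          have hgx : g * g5 ^ i = g5 ^ i * g := (Commute.pow_right (show Commute g g5 from hg) i)
          rw [← (ap_pow rep5 i (by norm_num : 1 < 64)).1, ← spAct.mul _ _ _ (by norm_num), hgx,
            spAct.mul _ _ _ (by norm_num), (ap_pow rep5 i (hlt 1 (by norm_num))).1]
        rw [List.all_eq_true]
        intro i _
        rw [List.all_eq_true]
        intro j _
        rw [beq_iff_eq, ← key i, ← key j]
        exact spAct.formB g _ _ (ap_pow rep5 i (by norm_num)).2 (ap_pow rep5 j (by norm_num)).2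
    · have f4 : apc 6 55952295326 4 = 4 := by decide +kernel
      have f34 : apc 6 55952295326 34 = 34 := by decide +kernel
      rw [B5, Finset.mem_filter, Finset.mem_product, Finset.mem_filter, Finset.mem_filter, Finset.mem_range,
        Finset.mem_range]
      refine ⟨⟨⟨hlt 4 (by norm_num), ?_⟩, hlt 34 (by norm_num), ?_⟩, ?_⟩
      · show apc 6 55952295326 (spAct.ap g 4) = spAct.ap g 4
        rw [← hc 4 (by norm_num), f4]
      · show apc 6 55952295326 (spAct.ap g 34) = spAct.ap g 34
        rw [← hc 34 (by norm_num), f34]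
      · show B6 (spAct.ap g 4) (spAct.ap g 34) = true
        rw [spAct.formB g 4 34 (by norm_num) (by norm_num)]
        decide +kernel
  have hC : ∀ g : Subgroup.centralizer ({g5} : Set S), (g : S) * g5 = g5 * g := fun g =>
    Subgroup.mem_centralizer_singleton_iff.1 g.2
  let φ : Subgroup.centralizer ({g5} : Set S) → (A5 ×ˢ B5 : Finset (ℕ × ℕ × ℕ)) := fun g =>
    ⟨(spAct.ap g 1, (spAct.ap g 4, spAct.ap g 34)), Finset.mem_product.2 (hmem g (hC g))⟩
  have hφ : Function.Injective φ := by
    intro g h he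
    have h0 := congrArg Subtype.val he
    have h1 : spAct.ap (g : S) 1 = spAct.ap (h : S) 1 := congrArg (fun p => p.1) h0
    have h2 : spAct.ap (g : S) 4 = spAct.ap (h : S) 4 := congrArg (fun p => p.2.1) h0
    have h3 : spAct.ap (g : S) 34 = spAct.ap (h : S) 34 := congrArg (fun p => p.2.2) h0
    have key : ∀ g : S, g * g5 = g5 * g → ∀ i : ℕ, spAct.ap g (itc 55952295326 i 1) =
        itc 55952295326 i (spAct.ap g 1) := by
      intro g hg i
      have hgx : g * g5 ^ i = g5 ^ i * g := (Commute.pow_right (show Commute g g5 from hg) i)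
      rw [← (ap_pow rep5 i (by norm_num : 1 < 64)).1, ← spAct.mul _ _ _ (by norm_num), hgx,
        spAct.mul _ _ _ (by norm_num), (ap_pow rep5 i (spAct.lt g 1 (by norm_num))).1]
    have e1 : itc 55952295326 1 1 = 30 := by decide +kernel
    have e2 : itc 55952295326 2 1 = 20 := by decide +kernel
    have e3 : itc 55952295326 3 1 = 3 := by decide +kernel
    have k1 := (key g (hC g) 1).trans ((congrArg _ h1).trans (key h (hC h) 1).symm)
    have k2 := (key g (hC g) 2).trans ((congrArg _ h1).trans (key h (hC h) 2).symm)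
    have k3 := (key g (hC g) 3).trans ((congrArg _ h1).trans (key h (hC h) 3).symm)
    rw [e1] at k1
    rw [e2] at k2
    rw [e3] at k3
    apply Subtype.ext
    refine eq_of_agree (vs := vs5) ?_ ?_ ?_
    · intro i
      rcases i with _ | _ | _ | _ | _ | _ | i
      all_goals simp [vs5]
    · intro i hi
      interval_cases i
      · exact h1
      · exact k1
      · exact k2
      · exact k3
      · exact h2
      · exact h3
    · intro i hi
      have h4 : ((List.range 6).all fun i => (List.range 64).any fun m => combv vs5 m 6 == 2 ^ i) = true := by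
        decide +kernel
      have h5 := List.all_eq_true.1 h4 i (List.mem_range.2 hi)
      obtain ⟨m, _, hm⟩ := List.any_eq_true.1 h5
      exact ⟨m, eq_of_beq hm⟩
  have h6 := Nat.card_le_card_of_injective φ hφ
  rw [Nat.card_eq_fintype_card (α := (A5 ×ˢ B5 : Finset (ℕ × ℕ × ℕ))), Fintype.card_coe, Finset.card_product,
    A5_card, B5_card] at h6
  exact h6

end Cfsg.Agent.H74.RIM
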