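import Cfsg.Agent.H74.RIM.XRow
import Cfsg.Agent.Characters.Core
import Cfsg.Agent.Blocks.Basic

/-!
# S4816 (RIM), module side: multiplier dividing 6 (helper74)

* `ek_six` : multiplier of order dividing 6, `NB p 2 S`; then `EK p S` follows from the case `K / N` of exponent two;
* `ek_of_XS` : `EK p S` from an extraspecial subgroup `3 ^ (1 + 2 n)`.
-/

set_option autoImplicit false
set_option linter.unusedSectionVars false

namespace Cfsg.Agent.H74.RIM.XEK

open Cfsg Subgroup Cfsg.Agent.H229.RIM Cfsg.Agent.H425.RIM.Tool Cfsg.Agent.H74.RIM.XSp Cfsg.Agent.H74.RIM.XRow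
open Cfsg.Agent.H665.RIM
open scoped commutatorElement

universe u

theorem bad {p : ℕ} {H V : Type u} [Group H] [Finite H] [AddCommGroup V] [Finite V] [DistribMulAction H V]
    {K N : Subgroup H} {φ : N →* ℂˣ} (C : CoreP (V := V) p K N φ) : Bad p N φ := by
  have htop : MulAction.stabilizer H (0 : V) = ⊤ := by
    rw [eq_top_iff]
    intro h _
    exact smul_zero h
  let e : ↥(MulAction.stabilizer H (0 : V)) ≃* H := (MulEquiv.subgroupCongr htop).trans Subgroup.topEquiv
  have he : ∀ x, e x = (x : H) := fun _ => rfl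
  intro χ hχ hov hd
  have h1 : IsIrrCharacter _ (χ ∘ e) := Cfsg.Agent.Characters.Core.isIrr_comp e.toMonoidHom e.surjective hχ
  refine C.P2 0 (χ ∘ e) h1 ?_ ?_
  · intro n hn hn'
    simp only [Function.comp, map_one]
    exact hov ⟨n, hn⟩
  · have h2 : charDegree (χ ∘ e) = charDegree χ := by
      rw [Cfsg.Agent.Blocks.Basic.charDegree_def, Cfsg.Agent.Blocks.Basic.charDegree_def, Function.comp, map_one]
    rw [h2]
    exact hd

theorem nb_use {p m : ℕ} {S : Type u} [Group S] (h : NB p m S) {E : Type u} [Group E] [Finite E] (π : E →* S)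
    (hs : Function.Surjective π) (Z : Subgroup E) (hZ : π.ker = Z) (hc : Z ≤ Subgroup.center E)
    (hp : commutator E = ⊤) (hm : Nat.card Z = m) (l : Z →* ℂˣ) (hl : Function.Injective l) :
    ∃ χ : E → ℂ, IsIrrCharacter E χ ∧ (∀ z : Z, χ z = χ 1 * l z) ∧ p ∣ charDegree χ := by
  subst hZ
  exact h E π hs hc hp hm l hl

/-- a subgroup of order three of a commutative group of order dividing 6 contains all the elements of order three -/
theorem mem_of_three {G : Type*} [Group G] [Finite G] (K N : Subgroup G) (hKc : K ≤ center G) (hK : Nat.card K ∣ 6)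
    (hNK : N ≤ K) (h3 : 3 ∣ Nat.card N) {u : G} (hu : u ∈ K) (hu3 : u ^ 3 = 1) : u ∈ N := by
  by_contra hun
  have : Fact (Nat.Prime 3) := ⟨Nat.prime_three⟩
  obtain ⟨w, hw⟩ := exists_prime_orderOf_dvd_card' 3 h3
  have hw' : orderOf (w : G) = 3 := by rw [Subgroup.orderOf_coe, hw]
  have hu1 : u ≠ 1 := by rintro rfl; exact hun (one_mem _)
  have huo : orderOf u = 3 := orderOf_eq_prime hu3 hu1
  have hc : Commute u (w : G) := ((mem_center_iff.1 (hKc hu)) w).symm
  -- nine elements
  let f : Fin 3 × Fin 3 → K := fun a => ⟨u ^ (a.1 : ℕ) * (w : G) ^ (a.2 : ℕ),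
    mul_mem (pow_mem hu _) (pow_mem (hNK w.2) _)⟩
  have hf : Function.Injective f := by
    rintro ⟨a, b⟩ ⟨a', b'⟩ h
    have h1 : u ^ (a : ℕ) * (w : G) ^ (b : ℕ) = u ^ (a' : ℕ) * (w : G) ^ (b' : ℕ) := congrArg Subtype.val h
    have h2 : ∀ k : ℤ, u ^ k ∈ N → (3 : ℤ) ∣ k := by
      intro k hk
      by_contra hnk
      apply hun
      have h4 : IsCoprime k 3 := by
        rw [Int.isCoprime_iff_gcd_eq_one, Int.gcd_comm]
        have h5 : Int.gcd 3 k ∣ 3 := by
          have := Int.gcd_dvd_left (a := 3) (b := k)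
          exact_mod_cast this
        rcases (Nat.dvd_prime Nat.prime_three).1 h5 with h6 | h6
        · exact h6
        · exfalso
          apply hnk
          have := Int.gcd_dvd_right (a := 3) (b := k)
          rw [h6] at this
          exact_mod_cast this
      obtain ⟨x, y, hxy⟩ := h4
      have h6 : (u ^ k) ^ x * (u ^ (3 : ℤ)) ^ y = u := by
        rw [← zpow_mul, ← zpow_mul, ← zpow_add, mul_comm k x, mul_comm 3 y, hxy, zpow_one]
      have h7 : u ^ (3 : ℤ) = 1 := by exact_mod_cast hu3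
      rw [h7, one_zpow, mul_one] at h6
      rw [← h6]
      exact zpow_mem hk x
    have h3 : u ^ ((a : ℤ) - a') ∈ N := by
      have h4 : u ^ ((a : ℤ) - a') = (w : G) ^ (b' : ℕ) * ((w : G) ^ (b : ℕ))⁻¹ := by
        rw [zpow_sub, zpow_natCast, zpow_natCast]
        have h5 : u ^ (a : ℕ) = u ^ (a' : ℕ) * (w : G) ^ (b' : ℕ) * ((w : G) ^ (b : ℕ))⁻¹ := by
          rw [← h1, mul_inv_cancel_right]
        rw [h5]
        have h6 : Commute (u ^ (a' : ℕ))⁻¹ ((w : G) ^ (b' : ℕ) * ((w : G) ^ (b : ℕ))⁻¹) := by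
          have h7 := hc.pow_pow (a' : ℕ) (b' : ℕ)
          have h8 := hc.pow_pow (a' : ℕ) (b : ℕ)
          exact (h7.inv_left).mul_right (h8.inv_left.inv_right)
        rw [mul_assoc (u ^ (a' : ℕ)), mul_assoc (u ^ (a' : ℕ)), ← h6.eq, mul_inv_cancel_left]
      rw [h4]
      exact mul_mem (pow_mem w.2 _) (inv_mem (pow_mem w.2 _))
    have h4 := h2 _ h3
    have h5 : (a : ℕ) = a' := by have := a.2; have := a'.2; omega
    rw [h5] at h1
    have h6 := mul_left_cancel h1
    have h7 : (b : ℕ) = b' := pow_injOn_Iio_orderOf (by rw [Set.mem_Iio, hw']; exact b.2)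
      (by rw [Set.mem_Iio, hw']; exact b'.2) h6
    exact Prod.ext (Fin.ext h5) (Fin.ext h7)
  have h1 := Nat.card_le_card_of_injective f hf
  rw [Nat.card_prod, Nat.card_fin] at h1
  have h2 := Nat.le_of_dvd (by norm_num) hK
  omega

theorem ek_six {p : ℕ} {S : Type u} [Group S] [Finite S] (h2 : NB p 2 S)
    (hM : ∀ (E : Type u) [Group E] [Finite E] (π : E →* S), Function.Surjective π → π.ker ≤ Subgroup.center E →
      commutator E = ⊤ → Nat.card π.ker ∣ 6)
    (hk : ∀ (H V : Type u) [Group H] [Finite H] [AddCommGroup V] [Finite V] [DistribMulAction H V]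
      (K N : Subgroup H) (φ : N →* ℂˣ) (π : H →* S), Sit (V := V) p K N φ π → (∀ k ∈ K, k ^ 2 ∈ N) → False) :
    EK p S := by
  intro H V _ _ _ _ _ K N φ π h hπ hker hKN
  have A : Sit (V := V) p K N φ π := ⟨h, hπ, hker, hKN⟩
  have hKc : K ≤ center H := A.K_le
  have h6 : Nat.card K ∣ 6 := by
    rw [← hker]
    exact hM H π hπ (by rw [hker]; exact hKc) h.perf
  by_contra _
  refine hk H V K N φ π A fun k hkK => ?_
  by_contra hkN
  -- `u = k ^ 2` has order three and is not in `N`
  have hk6 : k ^ 6 = 1 := by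
    obtain ⟨c, hc⟩ := h6
    rw [hc, pow_mul]
    have h1 : (⟨k, hkK⟩ : K) ^ Nat.card K = 1 := pow_card_eq_one'
    have h2 : k ^ Nat.card K = 1 := congrArg Subtype.val h1
    rw [h2, one_pow]
  set u := k ^ 2 with hu
  have huK : u ∈ K := pow_mem hkK 2
  have hu3 : u ^ 3 = 1 := by rw [hu, ← pow_mul]; exact hk6
  have hu1 : u ≠ 1 := by intro h0; rw [h0] at hkN; exact hkN (one_mem _)
  have huo : orderOf u = 3 := orderOf_eq_prime hu3 hu1
  have hN3 : ¬ 3 ∣ Nat.card N := fun h0 => hkN (mem_of_three K N hKc h6 h.NK h0 huK hu3)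
  have hNd : Nat.card N ∣ 6 := (card_dvd_of_le h.NK).trans h6
  have hN2 : Nat.card N = 2 := by
    have h1 : Nat.card N ≠ 1 := fun h0 => h.Nne (Subgroup.card_eq_one.1 h0)
    have h2 : Nat.card N ∣ 2 := by
      have h3 : (Nat.card N).Coprime 3 := ((Nat.prime_three.coprime_iff_not_dvd).2 hN3).symm
      exact h3.dvd_of_dvd_mul_right (by simpa using hNd)
    rcases (Nat.dvd_prime Nat.prime_two).1 h2 with h3 | h3
    · exact absurd h3 h1
    · exact h3
  set M := zpowers u with hM'
  have hMK : M ≤ K := by rw [hM', zpowers_le]; exact huK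
  have hMc : M ≤ center H := hMK.trans hKc
  have hMn : M.Normal := ⟨fun a ha b => by
    have h1 : b * a = a * b := (mem_center_iff.1 (hMc ha) b)
    rw [h1, mul_inv_cancel_right]; exact ha⟩
  have hM3 : Nat.card M = 3 := by rw [hM', Nat.card_zpowers, huo]
  -- `N ∩ M = 1`
  have hNM : ∀ a ∈ N, a ∈ M → a = 1 := by
    intro a ha hb
    have h1 : orderOf a ∣ 2 := by
      rw [← hN2, ← Subgroup.orderOf_mk a ha]; exact orderOf_dvd_natCard _
    have h2 : orderOf a ∣ 3 := by
      rw [← hM3, ← Subgroup.orderOf_mk a hb]; exact orderOf_dvd_natCard _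
    exact orderOf_eq_one_iff.1 (Nat.eq_one_of_dvd_coprimes (by norm_num) h1 h2)
  let f : N →* H ⧸ M := (QuotientGroup.mk' M).comp N.subtype
  have hf : Function.Injective f := by
    rw [injective_iff_map_eq_one]
    intro a ha
    have h1 : (a : H) ∈ M := (QuotientGroup.eq_one_iff (a : H)).1 ha
    exact Subtype.ext (hNM _ a.2 h1)
  have hMπ : ∀ k ∈ M, π k = 1 := by
    intro k hk
    have : k ∈ π.ker := by rw [hker]; exact hMK hk
    exact this
  let πE : H ⧸ M →* S := QuotientGroup.lift M π hMπ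
  have hπE : Function.Surjective πE := fun s => by
    obtain ⟨h, rfl⟩ := hπ s
    exact ⟨QuotientGroup.mk h, rfl⟩
  -- `K = N M`
  have hcard : Nat.card K ≤ Nat.card N * Nat.card M := by
    rw [hN2, hM3]; exact Nat.le_of_dvd (by norm_num) h6
  have hKNM : ∀ a ∈ K, ∃ b ∈ N, ∃ c ∈ M, a = b * c := by
    let F : N × M → K := fun x => ⟨(x.1 : H) * x.2, mul_mem (h.NK x.1.2) (hMK x.2.2)⟩
    have hF : Function.Injective F := by
      rintro ⟨a, b⟩ ⟨a', b'⟩ h0
      have h1 : (a : H) * b = a' * b' := congrArg Subtype.val h0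
      have h2 : (a' : H)⁻¹ * a = b' * (b : H)⁻¹ := by
        rw [inv_mul_eq_iff_eq_mul, ← mul_assoc, ← h1, mul_inv_cancel_right]
      have h3 : (a' : H)⁻¹ * a = 1 := hNM _ (mul_mem (inv_mem a'.2) a.2) (by
        rw [h2]; exact mul_mem b'.2 (inv_mem b.2))
      have h4 : (a : H) = a' := (inv_mul_eq_one.1 h3).symm
      rw [h4] at h1
      exact Prod.ext (Subtype.ext h4) (Subtype.ext (mul_left_cancel h1))
    have hF' : Function.Surjective F := by
      have := Fintype.ofFinite (N × M)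
      have := Fintype.ofFinite K
      apply ((Fintype.bijective_iff_injective_and_card F).2 ⟨hF, ?_⟩).2
      apply le_antisymm (Fintype.card_le_of_injective F hF)
      rw [← Nat.card_eq_fintype_card, ← Nat.card_eq_fintype_card, Nat.card_prod]
      exact hcard
    intro a ha
    obtain ⟨⟨b, c⟩, hbc⟩ := hF' ⟨a, ha⟩
    exact ⟨b, b.2, c, c.2, (congrArg Subtype.val hbc).symm⟩
  have hkerE : πE.ker = f.range := by
    ext x
    obtain ⟨x, rfl⟩ := QuotientGroup.mk_surjective x
    constructor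
    · intro hx
      have hx' : x ∈ K := by rw [← hker]; exact hx
      obtain ⟨b, hb, c, hc, rfl⟩ := hKNM x hx'
      refine ⟨⟨b, hb⟩, ?_⟩
      show (QuotientGroup.mk b : H ⧸ M) = QuotientGroup.mk (b * c)
      rw [QuotientGroup.eq, inv_mul_cancel_left]
      exact hc
    · rintro ⟨b, hb⟩
      rw [← hb]
      show π b = 1
      have : (b : H) ∈ π.ker := by rw [hker]; exact h.NK b.2
      exact this
  have hperf : commutator (H ⧸ M) = ⊤ := by
    rw [commutator_def, ← Subgroup.map_top_of_surjective _ (QuotientGroup.mk'_surjective M), ← map_commutator,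
      ← commutator_def, h.perf]
  have hcen : f.range ≤ center (H ⧸ M) := by
    rintro _ ⟨b, rfl⟩
    rw [mem_center_iff]
    intro g
    obtain ⟨g, rfl⟩ := QuotientGroup.mk_surjective g
    show (QuotientGroup.mk (g * b) : H ⧸ M) = QuotientGroup.mk (b * g)
    rw [mem_center_iff.1 (h.cen b.2) g]
  let ε : N ≃* f.range := MonoidHom.ofInjective hf
  have hε : ∀ b : N, ((ε b : f.range) : H ⧸ M) = f b := fun _ => rfl
  obtain ⟨χ, hχ, hov, hd⟩ := nb_use h2 πE hπE f.range hkerE hcen hperf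
    (by rw [← Nat.card_congr ε.toEquiv]; exact hN2) (φ.comp ε.symm.toMonoidHom)
    (h.inj.comp ε.symm.injective)
  refine bad h (χ ∘ QuotientGroup.mk' M)
    (Cfsg.Agent.Characters.Core.isIrr_comp (QuotientGroup.mk' M) (QuotientGroup.mk'_surjective M) hχ) ?_ ?_
  · intro b
    have h1 := hov (ε b)
    have h3 : (φ.comp ε.symm.toMonoidHom) (ε b) = φ b := by
      show φ (ε.symm (ε b)) = φ b
      rw [ε.symm_apply_apply]
    rw [h3] at h1
    have h4 : χ 1 = (χ ∘ QuotientGroup.mk' M) 1 := by rw [Function.comp, map_one]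
    rw [← h4]
    exact h1
  · have h1 : charDegree (χ ∘ QuotientGroup.mk' M) = charDegree χ := by
      rw [Cfsg.Agent.Blocks.Basic.charDegree_def, Cfsg.Agent.Blocks.Basic.charDegree_def, Function.comp, map_one]
    rw [h1]; exact hd

/-- **`EK p S` from an extraspecial subgroup.** -/
theorem ek_of_XS {p : ℕ} {S : Type u} [Group S] [Finite S] (hp : p.Prime) (hp3 : p ≠ 3) (h2 : NB p 2 S)
    (hM : ∀ (E : Type u) [Group E] [Finite E] (π : E →* S), Function.Surjective π → π.ker ≤ Subgroup.center E →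
      commutator E = ⊤ → Nat.card π.ker ∣ 6)
    (hsq : ¬ p ^ 2 ∣ Nat.card S) {n : ℕ} {r s : Fin n → S} {z : S} (X : XS r s z) (hz : z ≠ 1) {x g : S}
    (hx : orderOf x = p) (hxz : z ∈ closure {x, g * x * g⁻¹})
    (hnum : ∀ i : ℕ, i * p ≤ Nat.card S → i * i < p ^ 3 ^ n) : EK p S :=
  ek_six h2 hM fun _ _ _ _ _ _ _ _ _ _ _ A hN => false_of_XS A hp hp3 hsq hN X hz hx hxz hnum

end Cfsg.Agent.H74.RIM.XEK
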