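import Cfsg.Agent.H74.RIM.XSp
import Cfsg.Agent.H425.RIM.Tool

/-!
# S4816 (RIM), module side: rows from an extraspecial subgroup `3 ^ (1 + 2 n)` of `S` (helper74)

* `fx_bound` : `K / N` of exponent two, `z ∈ ⟨x, x ^ g⟩`: `p ^ (3 ^ n) |C_V(x)|² ≤ |V|²`;
* `false_of_XS` : with the union bound: `p ^ (3 ^ n) ≤ |S : N_S(⟨x⟩)|²`.
-/

set_option autoImplicit false
set_option linter.unusedSectionVars false

namespace Cfsg.Agent.H74.RIM.XRow

open Subgroup Cfsg.Agent.H229.RIM Cfsg.Agent.H425.RIM.Tool Cfsg.Agent.H74.RIM.XSp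

variable {p : ℕ} {H V S : Type*} [Group H] [Finite H] [AddCommGroup V] [Finite V] [DistribMulAction H V]
  [Group S] {K N : Subgroup H} {φ : N →* ℂˣ} {π : H →* S}

/-- `|C_V(x)|² ≤ |V| |C_V(x) ∩ C_V(x ^ g)|` -/
theorem pair_le {x g : H} {W : Type*} [Finite W] (f : V → W)
    (hf : ∀ a b, x • a = a → (g * x * g⁻¹) • a = a → x • b = b → (g * x * g⁻¹) • b = b → f a = f b → a = b) :
    Nat.card ↥(fx V x) * Nat.card ↥(fx V x) ≤ Nat.card V * Nat.card W := by
  classical
  have h1 : ∀ v ∈ fx V x, (g * x * g⁻¹) • (g • v) = g • v := by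
    intro v hv
    rw [mul_smul, mul_smul, inv_smul_smul]
    have : x • v = v := hv
    rw [this]
  let F : ↥(fx V x) × ↥(fx V x) →+ V :=
    { toFun := fun a => (a.1 : V) - g • (a.2 : V)
      map_zero' := by simp
      map_add' := by
        intro a b
        simp only [Prod.fst_add, Prod.snd_add, AddSubgroup.coe_add, smul_add]
        abel }
  have h2 : Nat.card F.ker ≤ Nat.card W := by
    refine Nat.card_le_card_of_injective (fun a : ↥F.ker => f ((a : ↥(fx V x) × ↥(fx V x)).1 : V)) ?_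
    rintro ⟨⟨a, b⟩, ha⟩ ⟨⟨a', b'⟩, ha'⟩ h
    have e1 : (a : V) = g • (b : V) := sub_eq_zero.1 ha
    have e2 : (a' : V) = g • (b' : V) := sub_eq_zero.1 ha'
    have e3 : (a : V) = a' := by
      refine hf _ _ a.2 ?_ a'.2 ?_ h
      · rw [e1]; exact h1 _ b.2
      · rw [e2]; exact h1 _ b'.2
    have e4 : (b : V) = b' := by
      have := e1.symm.trans (e3.trans e2)
      exact smul_left_cancel g this
    exact Subtype.ext (Prod.ext (Subtype.ext e3) (Subtype.ext e4))
  have h3 : Nat.card F.range ≤ Nat.card V := Nat.card_le_card_of_injective _ Subtype.val_injective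
  have h4 : Nat.card F.ker * F.ker.index = Nat.card (↥(fx V x) × ↥(fx V x)) := F.ker.card_mul_index
  rw [Nat.card_prod, AddSubgroup.index_ker] at h4
  rw [← h4, mul_comm (Nat.card V)]
  exact Nat.mul_le_mul h2 h3

variable (A : Sit (V := V) p K N φ π)
include A

theorem fx_bound (hp : p.Prime) (hp3 : p ≠ 3) (hN : ∀ k ∈ K, k ^ 2 ∈ N) {n : ℕ} {r s : Fin n → S} {z : S}
    (X : XS r s z) (hz : z ≠ 1) {x g : H} (hx : z ∈ closure {π x, π (g * x * g⁻¹)}) :
    p ^ 3 ^ n * (Nat.card ↥(fx V x) * Nat.card ↥(fx V x)) ≤ Nat.card V * Nat.card V := by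
  classical
  have hNn : N.Normal := ⟨fun a ha b => by
    have h1 : b * a = a * b := (mem_center_iff.1 (A.core.cen ha) b)
    rw [h1, mul_inv_cancel_right]; exact ha⟩
  -- the action of `H / N`
  let ρ : H →* (AddMonoid.End V)ˣ := (DistribMulAction.toAddMonoidEnd H V).toHomUnits
  have hρ : ∀ (h : H) (v : V), ((ρ h : (AddMonoid.End V)ˣ) : AddMonoid.End V) v = h • v := fun _ _ => rfl
  have hρN : ∀ k ∈ N, ρ k = 1 := by
    intro k hk
    refine Units.ext (AddMonoidHom.ext fun v => ?_)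
    exact (A.core.ker k).2 hk v
  let ρ' : H ⧸ N →* (AddMonoid.End V)ˣ := QuotientGroup.lift N ρ hρN
  letI : DistribMulAction (H ⧸ N) V := DistribMulAction.compHom V ((Units.coeHom (AddMonoid.End V)).comp ρ')
  have hact : ∀ (h : H) (v : V), (QuotientGroup.mk h : H ⧸ N) • v = h • v := fun _ _ => rfl
  -- the projection
  have hNK : ∀ k ∈ N, π k = 1 := by
    intro k hk
    have : k ∈ π.ker := by rw [A.ker]; exact A.core.NK hk
    exact this
  let π' : H ⧸ N →* S := QuotientGroup.lift N π hNK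
  have hπ' : ∀ h : H, π' (QuotientGroup.mk h) = π h := fun _ => rfl
  have hs : Function.Surjective π' := fun s => by
    obtain ⟨h, rfl⟩ := A.surj s
    exact ⟨QuotientGroup.mk h, rfl⟩
  have hk : ∀ k, π' k = 1 → (∀ g, k * g = g * k) ∧ k ^ 2 = 1 := by
    intro k h
    obtain ⟨k, rfl⟩ := QuotientGroup.mk_surjective k
    have h1 : π k = 1 := h
    refine ⟨fun g => ?_, ?_⟩
    · obtain ⟨g, rfl⟩ := QuotientGroup.mk_surjective g
      rw [← QuotientGroup.mk_mul, ← QuotientGroup.mk_mul, A.K_cen h1]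
    · rw [← QuotientGroup.mk_pow, QuotientGroup.eq_one_iff]
      apply hN
      rw [← A.ker]; exact h1
  obtain ⟨r', s', z', X', hz'⟩ := X.lift hs hk
  -- `z'` acts non-trivially
  obtain ⟨v, hv⟩ : ∃ v : V, z' • v ≠ v := by
    by_contra hcon
    push Not at hcon
    obtain ⟨y, rfl⟩ := QuotientGroup.mk_surjective z'
    have h1 : y ∈ N := (A.core.ker y).1 fun v => by rw [← hact]; exact hcon v
    apply hz
    rw [← hz']
    exact hNK y h1
  have hb := X'.bound hp hp3 A.core.exp hv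
  -- fixed vectors of `x` and `x ^ g`
  have hfix : ∀ a : V, x • a = a → (g * x * g⁻¹) • a = a → z' • a = a := by
    intro a h1 h2
    have h3 : closure {π x, π (g * x * g⁻¹)} ≤ (MulAction.stabilizer H a).map π := by
      rw [closure_le]
      rintro _ (rfl | h)
      · exact mem_map_of_mem _ h1
      · rw [Set.mem_singleton_iff.1 h]; exact mem_map_of_mem _ h2
    obtain ⟨u, hu, hu'⟩ := h3 hx
    have h4 : (QuotientGroup.mk u : H ⧸ N) ^ 4 = z' := by
      refine uniq hk ?_ ?_ X'.z3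
      · rw [map_pow, hπ', hu', hz', pow_succ, X.z3, one_mul]
      · have h5 : π' ((QuotientGroup.mk u : H ⧸ N) ^ 3) = 1 := by rw [map_pow, hπ', hu', X.z3]
        have h6 := (hk _ h5).2
        calc ((QuotientGroup.mk u : H ⧸ N) ^ 4) ^ 3 = (((QuotientGroup.mk u : H ⧸ N) ^ 3) ^ 2) ^ 2 := by
              rw [← pow_mul, ← pow_mul, ← pow_mul]
          _ = 1 := by rw [h6, one_pow]
    rw [← h4, ← QuotientGroup.mk_pow, hact]
    exact (MulAction.stabilizer H a).pow_mem hu 4
  have hne : Nonempty {v : V // z' • v = v} := ⟨⟨0, smul_zero z'⟩⟩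
  have hp2 := pair_le (V := V) (x := x) (g := g)
    (fun a : V => if h : z' • a = a then (⟨a, h⟩ : {v : V // z' • v = v}) else ⟨0, smul_zero z'⟩) (by
      intro a b h1 h2 h3 h4 h
      have ha := hfix a h1 h2
      have hb := hfix b h3 h4
      simp only [dif_pos ha, dif_pos hb] at h
      exact congrArg Subtype.val h)
  calc p ^ 3 ^ n * (Nat.card ↥(fx V x) * Nat.card ↥(fx V x))
      ≤ p ^ 3 ^ n * (Nat.card V * Nat.card {v : V // z' • v = v}) := Nat.mul_le_mul_left _ hp2
    _ = Nat.card V * (p ^ 3 ^ n * Nat.card {v : V // z' • v = v}) := by ring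
    _ ≤ Nat.card V * Nat.card V := Nat.mul_le_mul_left _ hb

/-- **The row.** -/
theorem false_of_XS (hp : p.Prime) (hp3 : p ≠ 3) (hsq : ¬ p ^ 2 ∣ Nat.card S) (hN : ∀ k ∈ K, k ^ 2 ∈ N) {n : ℕ}
    {r s : Fin n → S} {z : S} (X : XS r s z) (hz : z ≠ 1) {x g : S} (hx : orderOf x = p)
    (hxz : z ∈ closure {x, g * x * g⁻¹}) (hnum : ∀ i : ℕ, i * p ≤ Nat.card S → i * i < p ^ 3 ^ n) : False := by
  classical
  have hfS : Finite S := Finite.of_surjective _ A.surj
  obtain ⟨x', hx', hox'⟩ := A.exists_lift_p hp hx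
  obtain ⟨g', hg'⟩ := A.surj g
  have h1 := fx_bound A hp hp3 hN X hz (x := x') (g := g') (by
    rw [map_mul, map_mul, map_inv, hx', hg']; exact hxz)
  have h2 := A.union hp hsq hox'
  rw [hx'] at h2
  set i := (normalizer ((zpowers x : Subgroup S) : Set S)).index with hi
  set c := Nat.card ↥(fx V x') with hc
  have h3 : i * p ≤ Nat.card S := by
    have h4 : zpowers x ≤ normalizer ((zpowers x : Subgroup S) : Set S) := le_normalizer
    have h5 : p ≤ Nat.card ↥(normalizer ((zpowers x : Subgroup S) : Set S)) := by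
      rw [← hx, ← Nat.card_zpowers]
      exact Nat.card_le_card_of_injective _ (inclusion_injective h4)
    rw [← (normalizer ((zpowers x : Subgroup S) : Set S)).card_mul_index, mul_comm]
    exact Nat.mul_le_mul_right _ h5
  have h4 := hnum i h3
  have h5 : 0 < Nat.card V := Nat.card_pos
  have h6 : Nat.card V * Nat.card V ≤ (i * c) * (i * c) := Nat.mul_le_mul h2 h2
  have h7 : p ^ 3 ^ n * (c * c) ≤ (i * i) * (c * c) := by
    calc p ^ 3 ^ n * (c * c) ≤ Nat.card V * Nat.card V := h1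
      _ ≤ (i * c) * (i * c) := h6
      _ = (i * i) * (c * c) := by ring
  have h8 : 0 < c := by
    rcases Nat.eq_zero_or_pos c with h | h
    · rw [h, mul_zero] at h2; omega
    · exact h
  have h9 : p ^ 3 ^ n ≤ i * i := Nat.le_of_mul_le_mul_right h7 (Nat.mul_pos h8 h8)
  omega

end Cfsg.Agent.H74.RIM.XRow
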