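import Cfsg.Agent.H887.RIM.Extra

/-!
# S4816 (RIM), module side: the extraspecial group `3 ^ (1 + 2 n)` (helper74)

`XS r s z` : `r_i, s_i, z` of order dividing 3, `[r_i, s_i] = z`, all other pairs commute.
* `XS.bound` : if `z` is not trivial on `V`: `p ^ (3 ^ n) |C_V(z)| ≤ |V|`;
* `XS.lift` : lifting through a surjective homomorphism with central kernel of exponent two.
-/

set_option autoImplicit false
set_option linter.unusedSectionVars false

namespace Cfsg.Agent.H74.RIM.XSp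

open Subgroup

/-- generators of an extraspecial group of order `3 ^ (1 + 2 n)` -/
structure XS {G : Type*} [Group G] {n : ℕ} (r s : Fin n → G) (z : G) : Prop where
  r3 : ∀ i, r i ^ 3 = 1
  s3 : ∀ i, s i ^ 3 = 1
  z3 : z ^ 3 = 1
  zr : ∀ i, z * r i = r i * z
  zs : ∀ i, z * s i = s i * z
  rr : ∀ i j, r i * r j = r j * r i
  ss : ∀ i j, s i * s j = s j * s i
  rs : ∀ i j, i ≠ j → r i * s j = s j * r i
  c : ∀ i, r i * s i = z * (s i * r i)

section comm

variable {G : Type*} [Group G]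

theorem cen_closure {T : Set G} {z : G} (hz : ∀ t ∈ T, z * t = t * z) {x : G} (hx : x ∈ closure T) :
    z * x = x * z := by
  have h : closure T ≤ centralizer {z} := by
    rw [closure_le]
    intro t ht
    exact mem_centralizer_singleton_iff.2 (hz t ht).symm
  exact (mem_centralizer_singleton_iff.1 (h hx)).symm

theorem zpow_comm {z x : G} (h : z * x = x * z) (k : ℤ) : z ^ k * x = x * z ^ k :=
  ((show Commute z x from h).zpow_left k).eq

theorem comm_one {T : Set G} {z b : G} (hz : ∀ t ∈ T, z * t = t * z)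
    (hT : ∀ a ∈ T, ∃ k : ℤ, a * b = z ^ k * (b * a)) {x : G} (hx : x ∈ closure T) :
    ∃ k : ℤ, x * b = z ^ k * (b * x) := by
  induction hx using closure_induction with
  | mem a ha => exact hT a ha
  | one => exact ⟨0, by simp⟩
  | mul x y hx hy ihx ihy =>
    obtain ⟨k, hk⟩ := ihx
    obtain ⟨l, hl⟩ := ihy
    refine ⟨k + l, ?_⟩
    have h1 := zpow_comm (cen_closure hz hx) l
    calc x * y * b = x * (y * b) := by group
      _ = x * z ^ l * (b * y) := by rw [hl]; group
      _ = z ^ l * (x * b) * y := by rw [← h1]; group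
      _ = z ^ (k + l) * (b * (x * y)) := by rw [hk, add_comm, zpow_add]; group
  | inv x hx ih =>
    obtain ⟨k, hk⟩ := ih
    refine ⟨-k, ?_⟩
    have h1 := zpow_comm (z := z) (cen_closure hz hx) k
    have h2 : b * x⁻¹ = x⁻¹ * (z ^ k * b) := by
      calc b * x⁻¹ = x⁻¹ * (x * b) * x⁻¹ := by group
        _ = x⁻¹ * (z ^ k * b) := by rw [hk]; group
    have h3 : x⁻¹ * z ^ k = z ^ k * x⁻¹ := by
      calc x⁻¹ * z ^ k = x⁻¹ * (z ^ k * x) * x⁻¹ := by group
        _ = z ^ k * x⁻¹ := by rw [h1]; group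
    rw [h2, ← mul_assoc (x⁻¹), h3]
    group

theorem comm_all {T : Set G} {z : G} (hz : ∀ t ∈ T, z * t = t * z)
    (hT : ∀ a ∈ T, ∀ b ∈ T, ∃ k : ℤ, a * b = z ^ k * (b * a)) {x y : G} (hx : x ∈ closure T) (hy : y ∈ closure T) :
    ∃ k : ℤ, x * y = z ^ k * (y * x) := by
  obtain ⟨k, hk⟩ := comm_one hz (b := x) (fun a ha => by
    obtain ⟨k, hk⟩ := comm_one hz (b := a) (fun c hc => hT c hc a ha) hx
    refine ⟨-k, ?_⟩
    rw [hk]; group) hy
  refine ⟨-k, ?_⟩
  rw [hk]; group

end comm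

section index

variable {G : Type*} [Group G] {n : ℕ} {r s : Fin n → G} {z : G}

/-- the generators -/
def gen (r s : Fin n → G) : Fin n ⊕ Fin n → G := Sum.elim r s

/-- the group -/
def RR (r s : Fin n → G) (z : G) : Subgroup G := closure (insert z (Set.range (gen r s)))

theorem z_mem : z ∈ RR r s z := subset_closure (Set.mem_insert _ _)

theorem gen_mem (j : Fin n ⊕ Fin n) : gen r s j ∈ RR r s z := subset_closure (Set.mem_insert_of_mem _ ⟨j, rfl⟩)

variable (X : XS r s z)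
include X

theorem XS.zg (j : Fin n ⊕ Fin n) : z * gen r s j = gen r s j * z := by
  rcases j with i | i
  · exact X.zr i
  · exact X.zs i

theorem XS.cenT : ∀ t ∈ insert z (Set.range (gen r s)), z * t = t * z := by
  rintro t (rfl | ⟨j, rfl⟩)
  · rfl
  · exact X.zg j

theorem XS.cen {x : G} (hx : x ∈ RR r s z) : z * x = x * z := cen_closure X.cenT hx

theorem XS.commT : ∀ a ∈ insert z (Set.range (gen r s)), ∀ b ∈ insert z (Set.range (gen r s)),
    ∃ k : ℤ, a * b = z ^ k * (b * a) := by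
  rintro a (rfl | ⟨i, rfl⟩) b (rfl | ⟨j, rfl⟩)
  · exact ⟨0, by simp⟩
  · exact ⟨0, by rw [X.zg j]; simp⟩
  · exact ⟨0, by rw [X.zg i]; simp⟩
  · rcases i with i | i <;> rcases j with j | j
    · exact ⟨0, by rw [zpow_zero, one_mul]; exact X.rr i j⟩
    · by_cases h : i = j
      · subst h
        exact ⟨1, by rw [zpow_one]; exact X.c i⟩
      · exact ⟨0, by rw [zpow_zero, one_mul]; exact X.rs i j h⟩
    · by_cases h : i = j
      · subst h
        refine ⟨-1, ?_⟩
        show s i * r i = z ^ (-1 : ℤ) * (r i * s i)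
        rw [X.c i]; group
      · exact ⟨0, by rw [zpow_zero, one_mul]; exact (X.rs j i (Ne.symm h)).symm⟩
    · exact ⟨0, by rw [zpow_zero, one_mul]; exact X.ss i j⟩

theorem XS.comm {x y : G} (hx : x ∈ RR r s z) (hy : y ∈ RR r s z) : ∃ k : ℤ, x * y = z ^ k * (y * x) :=
  comm_all X.cenT X.commT hx hy

/-- the commutator with an element -/
def XS.cm (t : G) (ht : t ∈ RR r s z) : ↥(RR r s z) →* ↥(zpowers z) where
  toFun x := ⟨(x : G) * t * (x : G)⁻¹ * t⁻¹, by
    obtain ⟨k, hk⟩ := X.comm x.2 ht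
    rw [hk]
    exact ⟨k, by group⟩⟩
  map_one' := Subtype.ext (by simp)
  map_mul' x y := by
    apply Subtype.ext
    obtain ⟨k, hk⟩ := X.comm y.2 ht
    have h1 : (y : G) * t * (y : G)⁻¹ * t⁻¹ = z ^ k := by rw [hk]; group
    have h2 := zpow_comm (X.cen x.2) k
    show (x : G) * y * t * ((x : G) * y)⁻¹ * t⁻¹ = (x : G) * t * (x : G)⁻¹ * t⁻¹ * ((y : G) * t * (y : G)⁻¹ * t⁻¹)
    rw [h1]
    have h3 := X.cen ht
    have h4 : (x : G) * t * (x : G)⁻¹ * t⁻¹ * z ^ k = z ^ k * ((x : G) * t * (x : G)⁻¹ * t⁻¹) := by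
      have h5 : (x : G) * t * (x : G)⁻¹ * t⁻¹ ∈ RR r s z :=
        mul_mem (mul_mem (mul_mem x.2 ht) (inv_mem x.2)) (inv_mem ht)
      exact (zpow_comm (X.cen h5) k).symm
    rw [h4]
    calc (x : G) * y * t * ((x : G) * y)⁻¹ * t⁻¹ = x * (y * t * (y : G)⁻¹ * t⁻¹) * t * (x : G)⁻¹ * t⁻¹ := by group
      _ = z ^ k * ((x : G) * t * (x : G)⁻¹ * t⁻¹) := by rw [h1, ← h2]; group

/-- all the commutators with the generators -/
def XS.F : ↥(RR r s z) →* (Fin n ⊕ Fin n → ↥(zpowers z)) := MonoidHom.pi fun j => X.cm (gen r s j) (gen_mem j)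

theorem XS.F_apply (x : ↥(RR r s z)) (j : Fin n ⊕ Fin n) :
    ((X.F x j : ↥(zpowers z)) : G) = (x : G) * gen r s j * (x : G)⁻¹ * (gen r s j)⁻¹ := rfl

open scoped IsMulCommutative in
theorem XS.F_surj : Function.Surjective X.F := by
  classical
  rw [← MonoidHom.range_eq_top, eq_top_iff]
  rintro g -
  -- the unit vectors
  have key : ∀ j, (Pi.mulSingle j (⟨z, mem_zpowers z⟩ : ↥(zpowers z)) : Fin n ⊕ Fin n → ↥(zpowers z)) ∈ X.F.range := by
    have hrr : ∀ i j, r i * r j * (r i)⁻¹ * (r j)⁻¹ = 1 := fun i j => by rw [X.rr]; group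
    have hss : ∀ i j, s i * s j * (s i)⁻¹ * (s j)⁻¹ = 1 := fun i j => by rw [X.ss]; group
    intro j
    rcases j with i | i
    · -- `s i ⁻¹`
      refine ⟨(⟨s i, gen_mem (Sum.inr i)⟩ : ↥(RR r s z))⁻¹, ?_⟩
      rw [map_inv, inv_eq_iff_eq_inv, ← Pi.mulSingle_inv]
      funext j
      apply Subtype.ext
      rw [X.F_apply]
      rcases j with j | j
      · by_cases h : i = j
        · subst h
          rw [Pi.mulSingle_eq_same]
          show s i * r i * (s i)⁻¹ * (r i)⁻¹ = z⁻¹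
          have h1 : s i * r i = z⁻¹ * (r i * s i) := by rw [X.c i]; group
          rw [h1]; group
        · rw [Pi.mulSingle_eq_of_ne (fun h' => h (Sum.inl.inj h').symm)]
          show s i * r j * (s i)⁻¹ * (r j)⁻¹ = 1
          rw [← X.rs j i (Ne.symm h)]; group
      · rw [Pi.mulSingle_eq_of_ne (fun h => by cases h)]
        exact hss i j
    · refine ⟨(⟨r i, gen_mem (Sum.inl i)⟩ : ↥(RR r s z)), ?_⟩
      funext j
      apply Subtype.ext
      rw [X.F_apply]
      rcases j with j | j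
      · rw [Pi.mulSingle_eq_of_ne (fun h => by cases h)]
        exact hrr i j
      · by_cases h : i = j
        · subst h
          rw [Pi.mulSingle_eq_same]
          show r i * s i * (r i)⁻¹ * (s i)⁻¹ = z
          rw [X.c i]; group
        · rw [Pi.mulSingle_eq_of_ne (fun h' => h (Sum.inr.inj h').symm)]
          show r i * s j * (r i)⁻¹ * (s j)⁻¹ = 1
          rw [X.rs i j h]; group
  rw [← Finset.univ_prod_mulSingle g]
  refine Subgroup.prod_mem _ fun j _ => ?_
  obtain ⟨k, hk⟩ := mem_zpowers_iff.1 (g j).2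
  have h1 : g j = (⟨z, mem_zpowers z⟩ : ↥(zpowers z)) ^ k := Subtype.ext hk.symm
  rw [h1, Pi.mulSingle_zpow]
  exact zpow_mem (key j) k

theorem XS.index_le [Finite G] (hz : z ≠ 1) : (3 ^ n) ^ 2 ≤ (center ↥(RR r s z)).index := by
  have h1 : center ↥(RR r s z) ≤ X.F.ker := by
    intro x hx
    rw [MonoidHom.mem_ker]
    funext j
    apply Subtype.ext
    rw [X.F_apply]
    have h2 := congrArg Subtype.val (mem_center_iff.1 hx ⟨gen r s j, gen_mem j⟩)
    have h3 : gen r s j * (x : G) = (x : G) * gen r s j := h2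
    rw [← h3]
    show gen r s j * (x : G) * (x : G)⁻¹ * (gen r s j)⁻¹ = 1
    group
  have h2 : X.F.ker.index = (3 ^ n) ^ 2 := by
    rw [index_ker, MonoidHom.range_eq_top.2 X.F_surj, card_top, Nat.card_fun, Nat.card_sum, Nat.card_fin,
      Nat.card_zpowers, orderOf_eq_prime X.z3 hz, ← pow_mul, mul_comm n 2, two_mul]
  rw [← h2]
  exact index_antitone h1

/-- **The bound.** -/
theorem XS.bound [Finite G] {p : ℕ} (hp : p.Prime) (hp3 : p ≠ 3) {V : Type*} [AddCommGroup V] [Finite V]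
    [DistribMulAction G V] (hV : ∀ v : V, p • v = 0) {v : V} (hv : z • v ≠ v) :
    p ^ 3 ^ n * Nat.card {v : V // z • v = v} ≤ Nat.card V := by
  have hz : z ≠ 1 := by
    rintro rfl
    exact hv (one_smul _ _)
  have h1 := Cfsg.Agent.H887.RIM.extra_le_conj hp hV (RR r s z) Nat.prime_three (Ne.symm hp3) X.z3
    (fun x hx => X.cen hx) (fun x hx y hy => by
      obtain ⟨k, hk⟩ := X.comm hx hy
      have h1 : z ^ k ∈ zpowers z := ⟨k, rfl⟩
      obtain ⟨l, hl⟩ := mem_powers_iff_mem_zpowers.2 h1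
      have hl' : z ^ l = z ^ k := hl
      refine ⟨l, ?_⟩
      rw [hl', hk]; group) hv (X.index_le hz) {1} (by
      intro k hk
      rw [Finset.mem_singleton.1 hk]
      exact ⟨by norm_num, 1, by group⟩)
  rw [Finset.card_singleton, one_mul] at h1
  exact h1

end index

section lift

variable {L S : Type*} [Group L] [Group S] {π : L →* S} (hs : Function.Surjective π)
  (hk : ∀ k, π k = 1 → (∀ g, k * g = g * k) ∧ k ^ 2 = 1)
include hk

theorem uniq {y y' : L} (h : π y = π y') (h1 : y ^ 3 = 1) (h2 : y' ^ 3 = 1) : y = y' := by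
  have h3 : π (y⁻¹ * y') = 1 := by rw [map_mul, map_inv, h, inv_mul_cancel]
  obtain ⟨h4, h5⟩ := hk _ h3
  set k := y⁻¹ * y' with hkd
  have h6 : y' = y * k := by rw [hkd]; group
  have h7 : Commute y k := (h4 y).symm
  have h8 : k ^ 3 = 1 := by rw [h6, h7.mul_pow, h1, one_mul] at h2; exact h2
  have h9 : k = 1 := by rw [pow_succ, h5, one_mul] at h8; exact h8
  rw [h6, h9, mul_one]

theorem commute_lift {a b : L} (ha : a ^ 3 = 1) (h : π a * π b = π b * π a) : a * b = b * a := by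
  have h1 : b * a * b⁻¹ = a := by
    refine uniq hk ?_ ?_ ha
    · rw [map_mul, map_mul, map_inv, ← h]; group
    · have h2 : (b * a * b⁻¹) ^ 3 = b * a ^ 3 * b⁻¹ := conj_pow
      rw [h2, ha]; group
  calc a * b = (b * a * b⁻¹) * b := by rw [h1]
    _ = b * a := by group

include hs in
theorem exists_lift {x : S} (hx : x ^ 3 = 1) : ∃ y : L, π y = x ∧ y ^ 3 = 1 := by
  obtain ⟨y, rfl⟩ := hs x
  refine ⟨y ^ 4, ?_, ?_⟩
  · rw [map_pow, pow_succ, hx, one_mul]
  · have h1 : π (y ^ 3) = 1 := by rw [map_pow, hx]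
    have h2 := (hk _ h1).2
    calc (y ^ 4) ^ 3 = ((y ^ 3) ^ 2) ^ 2 := by rw [← pow_mul, ← pow_mul, ← pow_mul]
      _ = 1 := by rw [h2, one_pow]

include hs in
theorem XS.lift {n : ℕ} {r s : Fin n → S} {z : S} (X : XS r s z) :
    ∃ (r' s' : Fin n → L) (z' : L), XS r' s' z' ∧ π z' = z := by
  choose r' hr hr3 using fun i => exists_lift hs hk (X.r3 i)
  choose s' hs1 hs3 using fun i => exists_lift hs hk (X.s3 i)
  obtain ⟨z', hz, hz3⟩ := exists_lift hs hk X.z3
  have hzr : ∀ i, z' * r' i = r' i * z' := fun i => commute_lift hk hz3 (by rw [hz, hr]; exact X.zr i)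
  have hzs : ∀ i, z' * s' i = s' i * z' := fun i => commute_lift hk hz3 (by rw [hz, hs1]; exact X.zs i)
  refine ⟨r', s', z', ⟨hr3, hs3, hz3, hzr, hzs, fun i j => commute_lift hk (hr3 i) (by rw [hr, hr]; exact X.rr i j),
    fun i j => commute_lift hk (hs3 i) (by rw [hs1, hs1]; exact X.ss i j),
    fun i j h => commute_lift hk (hr3 i) (by rw [hr, hs1]; exact X.rs i j h), fun i => ?_⟩, hz⟩
  have h1 : r' i * s' i * (r' i)⁻¹ = z' * s' i := by
    refine uniq hk ?_ ?_ ?_
    · rw [map_mul, map_mul, map_inv, map_mul, hr, hs1, hz, X.c i]; group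
    · rw [conj_pow, hs3]; group
    · rw [(show Commute z' (s' i) from hzs i).mul_pow, hz3, hs3, one_mul]
  calc r' i * s' i = (r' i * s' i * (r' i)⁻¹) * r' i := by group
    _ = z' * (s' i * r' i) := by rw [h1]; group

end lift

/-- transport by a homomorphism -/
theorem XS.map {G H : Type*} [Group G] [Group H] (f : G →* H) {n : ℕ} {r s : Fin n → G} {z : G} (X : XS r s z) :
    XS (fun i => f (r i)) (fun i => f (s i)) (f z) := by
  refine ⟨fun i => ?_, fun i => ?_, ?_, fun i => ?_, fun i => ?_, fun i j => ?_, fun i j => ?_, fun i j h => ?_,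
    fun i => ?_⟩
  · rw [← map_pow, X.r3, map_one]
  · rw [← map_pow, X.s3, map_one]
  · rw [← map_pow, X.z3, map_one]
  · rw [← map_mul, X.zr, map_mul]
  · rw [← map_mul, X.zs, map_mul]
  · rw [← map_mul, X.rr, map_mul]
  · rw [← map_mul, X.ss, map_mul]
  · rw [← map_mul, X.rs i j h, map_mul]
  · rw [← map_mul, X.c, map_mul, map_mul]

end Cfsg.Agent.H74.RIM.XSp
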